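import Cfsg.Agent.H87.Fi23A.Uniq.Main
import Cfsg.Agent.H97.Uniq.M24Local

/-! A class with trivial centre and a quotient of type M(22) around one member is of type M(23) as
soon as one group of type M(23) exists, and is isomorphic to it. -/

set_option autoImplicit false

namespace Cfsg.Agent.H87.Fi23A

/-- Transport from a model of type M(23). -/
theorem of_model {G X : Type*} [Group G] [Finite G] [Group X] [Finite X] {D : Set G} {E : Set X}
    (hD : Cfsg.IsThreeTranspositionClass D) (hprim : Cfsg.IsPrimitiveUnderConj D) (h : Near23 D)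
    (hE : Cfsg.IsThreeTranspositionClass E) (hEprim : Cfsg.IsPrimitiveUnderConj E)
    (hEtyp : Cfsg.IsOfTypeM23 X E) :
    Cfsg.IsOfTypeM23 G D ∧ ∃ e : X ≃* G, e '' E = D := by
  obtain ⟨d, hd, -⟩ := h.near
  obtain ⟨d', hd', -⟩ := (Near23.of_type hEtyp).near
  obtain ⟨e, he, -⟩ :=
    Uniq.m23_exists_equiv ⟨hE, hEprim, Near23.of_type hEtyp⟩ ⟨hD, hprim, h⟩ hd' hd
  exact ⟨he ▸ H97.Uniq.m23_map e hEtyp, e, he⟩

end Cfsg.Agent.H87.Fi23A
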