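import Cfsg.Agent.H87.Fi23A.Uniq.Main

/-! Star maps keeping every product relation of the star are good. -/

set_option autoImplicit false
set_option linter.unusedSectionVars false

namespace Cfsg.Agent.H87.Fi23A.Uniq

open Cfsg.Agent
open Cfsg.Agent.H43.FischerTwins (Sset)
open Cfsg.Agent.H97.Uniq (Cn Loc mem_cn_of_sset)
open Cfsg.Agent.H44.M23Uniq (sixVec sixVec_iso)

variable {G₁ G₂ : Type*} [Group G₁] [Group G₂] [Finite G₁] [Finite G₂] {D₁ : Set G₁} {D₂ : Set G₂}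

/-- Keeping the trivial products of the star suffices. -/
theorem good23_of_prod (H : Hyp D₁) (H' : Hyp D₂) {d : G₁} {d' : G₂} (hd : d ∈ D₁) {φ : G₁ → G₂}
    (L : Loc D₁ D₂ d d' φ)
    (hrel : ∀ l : List G₁, (∀ y ∈ l, y ∈ Cn D₁ d) → l.prod = 1 → (l.map φ).prod = 1) :
    Good23 D₁ D₂ d d' φ := by
  classical
  obtain ⟨a, ha⟩ := Set.nonempty_of_ncard_ne_zero
    (show (Sset D₁ d).ncard ≠ 0 by rw [Fi23A.sset_ncard H.cls H.prim H.typ hd]; norm_num)
  obtain ⟨F, i1, i2, i3, hF, w, hw, ⟨S⟩⟩ := H.exists_sixData hd ha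
  have iq := sixVec_iso hF hw S.full_a
  have hm : ∀ y ∈ (sixVec w S.pa).map S.low, y ∈ Sset D₁ d ∩ Sset D₁ a := fun y hy => by
    obtain ⟨v, hv, rfl⟩ := List.mem_map.1 hy
    exact S.low_mem v (iq v hv).1 (iq v hv).2
  refine ⟨L, a, ha, (sixVec w S.pa).map S.low, S.nodup_a, rfl, hm, S.comm_a, S.prod_a, ?_⟩
  have h := hrel (a :: (sixVec w S.pa).map S.low) (fun y hy => by
    rcases List.mem_cons.1 hy with rfl | hy
    · exact mem_cn_of_sset ha
    · exact mem_cn_of_sset (hm y hy).1) (by rw [List.prod_cons, S.prod_a, H17.sq_one H.cls.1 ha.1])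
  rw [List.map_cons, List.prod_cons] at h
  rw [eq_inv_of_mul_eq_one_right h,
    H17.inv_self H'.cls.1 (L.bij.mapsTo (mem_cn_of_sset ha)).1]

end Cfsg.Agent.H87.Fi23A.Uniq
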