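import Cfsg.Agent.H87.Fi23A.Uniq.Facts
import Cfsg.Agent.H87.Fi23A.Uniq.Base

/-! Two classes of type M(23) with trivial centres are isomorphic, extending any good star map. -/

set_option autoImplicit false
set_option linter.unusedSectionVars false

namespace Cfsg.Agent.H87.Fi23A.Uniq

open Cfsg.Agent Subgroup
open Cfsg.Agent.H43.FischerTwins (Sset sset_stable)
open Cfsg.Agent.H53 (nearImage NearQuot)
open Cfsg.Agent.H97.Uniq (Cn Loc Env mem_cn_of_sset tw tw_fix tw_mem SysPre)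
open Cfsg.Agent.H44.M23Uniq (sixVec InClass sixVec_iso)

variable {G₁ G₂ : Type*} [Group G₁] [Group G₂] [Finite G₁] [Finite G₂] {D₁ : Set G₁} {D₂ : Set G₂}

/-- A map of stars restricted to the common star of a partner. -/
theorem bij_pair {x y : G₁} {x' : G₂} {ψ : G₁ → G₂} (L : Loc D₁ D₂ x x' ψ) (hy : y ∈ Cn D₁ x) :
    Set.BijOn ψ (Cn D₁ x ∩ Cn D₁ y) (Cn D₂ x' ∩ Cn D₂ (ψ y)) := by
  refine ⟨fun z hz => ⟨L.bij.mapsTo hz.1, (L.bij.mapsTo hz.1).1, (L.comm y hy z hz.1).2 hz.2.2⟩,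
    L.bij.injOn.mono Set.inter_subset_left, fun u hu => ?_⟩
  obtain ⟨z, hz, rfl⟩ := L.bij.surjOn hu.1
  exact ⟨z, ⟨hz, hz.1, (L.comm y hy z hz).1 hu.2.2⟩, rfl⟩

variable (H : Hyp D₁) (H' : Hyp D₂)
include H H'

/-- A good map extends to the star of a partner. -/
theorem exists_star {d : G₁} {d' : G₂} {φ : G₁ → G₂} (hd : d ∈ D₁) (hφ : Good23 D₁ D₂ d d' φ)
    {x : G₁} (hx : x ∈ Sset D₁ d) :
    ∃ ψ, Loc D₁ D₂ x (φ x) ψ ∧ Set.EqOn ψ φ (Cn D₁ x ∩ Cn D₁ d) := by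
  classical
  have L := hφ.toLoc
  have hd' : d' ∈ D₂ := L.base ▸ (L.bij.mapsTo (x := d) ⟨hd, Commute.refl d⟩).1
  have hx' : φ x ∈ Sset D₂ d' := H97.Uniq.Loc.sset L hd hx
  have dX := H.sset_symm hd hx
  have dX' := H'.sset_symm hd' hx'
  obtain ⟨Ψ, LΨ, hΨ⟩ := exists_toQuot H H' dX dX' hx.1 hx'.1 (ψ := φ)
    (by rw [Set.inter_comm, Set.inter_comm (Cn D₂ (φ x))]; exact bij_pair L (mem_cn_of_sset hx))
    rfl L.base (fun u hu v hv => L.comm u hu.2 v hv.2) (fun u hu v hv => L.conj u hu.2 v hv.2)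
  -- the six in the quotient around `x`
  obtain ⟨a, ha, l, ln, llen, lm, lc, lp, lim⟩ := hφ.seven
  obtain ⟨h, hh, hhx⟩ : ∃ h ∈ closure (Sset D₁ d), h * a * h⁻¹ = x := by
    obtain ⟨h1, -, -⟩ := Fi23A.Near23.localAll H.cls H.prim H.typ hd
    obtain ⟨g, hg⟩ := H17.class_transitive h1 (qmap_mem ha) (qmap_mem hx)
    obtain ⟨⟨h, hh⟩, rfl⟩ := QuotientGroup.mk_surjective g
    obtain ⟨h', -, e⟩ := equivariant_mem L H.grp hd hh
    obtain ⟨hm, -⟩ := e a (mem_cn_of_sset ha)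
    have hs : h * a * h⁻¹ ∈ Sset D₁ d := ⟨hm.1, fun q => ha.2.1 (by
      have hc : Commute d h := H43.M22.nearGen_commute hh
      calc a = h⁻¹ * (h * a * h⁻¹) * h := by group
        _ = d := by rw [q, mul_assoc, hc.eq, ← mul_assoc, inv_mul_cancel, one_mul]), hm.2⟩
    refine ⟨h, hh, H.qmap_inj hd hs hx ?_⟩
    rw [qmap_conj hh (subset_closure ha), qmap_of_mem hh]
    exact hg
  obtain ⟨h', -, he⟩ := equivariant_mem L H.grp hd hh
  have mm : ∀ y ∈ l.map (MulAut.conj h), y ∈ Sset D₁ d ∧ y ∈ Sset D₁ x := by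
    intro y hy
    obtain ⟨z, hz, rfl⟩ := List.mem_map.1 hy
    have hzd := (lm z hz).1
    have hc : Commute d h := H43.M22.nearGen_commute hh
    refine ⟨⟨H.conjD h z hzd.1, fun q => hzd.2.1 ?_, (he z (mem_cn_of_sset hzd)).1.2⟩,
      hhx ▸ (H43.FischerTwins.sset_conj H.conjD h).2 (lm z hz).2⟩
    calc z = h⁻¹ * (h * z * h⁻¹) * h := by group
      _ = d := by
        rw [show h * z * h⁻¹ = d from q, mul_assoc, hc.eq, ← mul_assoc, inv_mul_cancel, one_mul]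
  obtain ⟨F, i1, i2, i3, hF, E⟩ := H.env hx.1
  obtain ⟨F', j1, j2, j3, hF', E'⟩ := H'.env hx'.1
  obtain ⟨w, -, -, hw⟩ := H43.exists_omega hF
  have hsix : H97.Uniq.Six (Nq D₁ x) (qmap D₁ x d) Ψ := by
    refine H97.Uniq.six_of_one E hw (qmap_mem dX) LΨ
      (l₀ := (l.map (MulAut.conj h)).map (qmap D₁ x)) ?_ (by simp [llen]) ?_ ?_ ?_ ?_
    · refine (ln.map (MulAut.conj h).injective).map_on fun y hy z hz e => ?_
      exact H.qmap_inj hx.1 (mm y hy).2 (mm z hz).2 e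
    · intro q hq
      obtain ⟨y, hy, rfl⟩ := List.mem_map.1 hq
      exact (H.qmap_sset hx.1 dX (mm y hy).2).2 (mm y hy).1
    · intro q hq r hr
      obtain ⟨y, hy, rfl⟩ := List.mem_map.1 hq
      obtain ⟨z, hz, rfl⟩ := List.mem_map.1 hr
      refine (H.qmap_commute (mm y hy).2 (mm z hz).2).2 ?_
      obtain ⟨y', hy', rfl⟩ := List.mem_map.1 hy
      obtain ⟨z', hz', rfl⟩ := List.mem_map.1 hz
      exact (H17.commute_conj h).2 (lc y' hy' z' hz')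
    · rw [← qmap_prod _ fun y hy => subset_closure (mm y hy).2, ← map_list_prod, lp,
        MulAut.conj_apply, hhx, H.qmap_self hx.1]
    · have e1 : ((l.map (MulAut.conj h)).map (qmap D₁ x)).map Ψ =
          ((l.map (MulAut.conj h)).map φ).map (qmap D₂ (φ x)) := by
        simp only [List.map_map]
        exact List.map_congr_left fun y hy =>
          have hm := mm (MulAut.conj h y) (List.mem_map.2 ⟨y, hy, rfl⟩)
          (hΨ _ ⟨hm.2, mem_cn_of_sset hm.1⟩).2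
      have e2 : (l.map (MulAut.conj h)).map φ = (l.map φ).map (MulAut.conj h') := by
        rw [List.map_map, List.map_map]
        exact List.map_congr_left fun y hy => (he y (mem_cn_of_sset (lm y hy).1)).2
      rw [e1, ← qmap_prod _ fun y hy => ?_, e2, ← map_list_prod, lim, MulAut.conj_apply,
        ← (he a (mem_cn_of_sset ha)).2, hhx, H'.qmap_self hx'.1]
      obtain ⟨z, hz, rfl⟩ := List.mem_map.1 hy
      exact subset_closure (hΨ z ⟨(mm z hz).2, mem_cn_of_sset (mm z hz).1⟩).1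
  obtain ⟨e, hee, -, heΨ⟩ := H97.Uniq.m22_extend E E' (H.center_quot hx.1) (H'.center_quot hx'.1)
    (qmap_mem dX) (qmap_mem dX') (φ := Ψ) ⟨LΨ, hsix⟩
  obtain ⟨ψ, Lψ, hψ⟩ := exists_lift H H' hx.1 hx'.1 e hee
  refine ⟨ψ, Lψ, fun z hz => ?_⟩
  by_cases hzx : z = x
  · rw [hzx, Lψ.base]
  have hzX : z ∈ Sset D₁ x := ⟨hz.1.1, hzx, hz.1.2⟩
  refine H'.qmap_inj hx'.1 (hψ z hzX).1 (hΨ z ⟨hzX, hz.2⟩).1 ?_
  rw [(hψ z hzX).2, heΨ _ ((H.qmap_cn hx.1 dX hzX).2 hz.2), (hΨ z ⟨hzX, hz.2⟩).2]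

/-- Two extensions differ by the base member. -/
theorem edge {d : G₁} {d' : G₂} {φ : G₁ → G₂} (hd : d ∈ D₁) (L : Loc D₁ D₂ d d' φ) {x y : G₁}
    {ψx ψy : G₁ → G₂} (hx : x ∈ Sset D₁ d) (hy : y ∈ Sset D₁ d) (hxy : Commute x y)
    (Lx : Loc D₁ D₂ x (φ x) ψx) (Ly : Loc D₁ D₂ y (φ y) ψy)
    (hxe : Set.EqOn ψx φ (Cn D₁ x ∩ Cn D₁ d)) (hye : Set.EqOn ψy φ (Cn D₁ y ∩ Cn D₁ d))
    (hne : x ≠ y) :
    ∃ e : Bool, Set.EqOn ψx (fun z => ψy (tw d e z)) (Cn D₁ x ∩ Cn D₁ y) := by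
  classical
  have dX := H.sset_symm hd hx
  have yX : y ∈ Sset D₁ x := ⟨hy.1, hne.symm, hxy⟩
  have hx' : φ x ∈ Sset D₂ d' := H97.Uniq.Loc.sset L hd hx
  have hy' : φ y ∈ Sset D₂ d' := H97.Uniq.Loc.sset L hd hy
  have yX' : φ y ∈ Sset D₂ (φ x) := ⟨hy'.1,
    fun e => hne (L.bij.injOn (mem_cn_of_sset hy) (mem_cn_of_sset hx) e).symm,
    (L.comm x (mem_cn_of_sset hx) y (mem_cn_of_sset hy)).2 hxy⟩
  have xY : x ∈ Cn D₁ y := ⟨hx.1, hxy.symm⟩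
  have exy : ψx y = φ y := hxe ⟨mem_cn_of_sset yX, mem_cn_of_sset hy⟩
  have eyx : ψy x = φ x := hye ⟨xY, mem_cn_of_sset hx⟩
  obtain ⟨Ψx, LX, hX⟩ := exists_toQuot H H' yX yX' hx.1 hx'.1 (ψ := ψx)
    (exy ▸ bij_pair Lx (mem_cn_of_sset yX)) Lx.base exy
    (fun u hu v hv => Lx.comm u hu.1 v hv.1) (fun u hu v hv => Lx.conj u hu.1 v hv.1)
  obtain ⟨Ψy, LY, hY⟩ := exists_toQuot H H' yX yX' hx.1 hx'.1 (ψ := ψy)
    (by rw [Set.inter_comm, Set.inter_comm (Cn D₂ (φ x))]; exact eyx ▸ bij_pair Ly xY) eyx Ly.base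
    (fun u hu v hv => Ly.comm u hu.2 v hv.2) (fun u hu v hv => Ly.conj u hu.2 v hv.2)
  obtain ⟨F, i1, i2, i3, hF, E⟩ := H.env hx.1
  obtain ⟨e, he⟩ := H97.Uniq.loc_unique E (qmap_mem yX)
    ((H.qmap_sset hx.1 yX dX).2 (H.sset_symm hd hy)) LY LX fun q hq => by
    obtain ⟨z, hz, rfl⟩ := qmap_surj hq.1.1
    have hzy : z ∈ Cn D₁ y := (H.qmap_cn hx.1 yX hz).1 hq.1
    have hzd : z ∈ Cn D₁ d := (H.qmap_cn hx.1 dX hz).1 hq.2
    rw [(hX z ⟨hz, hzy⟩).2, (hY z ⟨hz, hzy⟩).2, hxe ⟨mem_cn_of_sset hz, hzd⟩, hye ⟨hzy, hzd⟩]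
  refine ⟨e, fun z hz => ?_⟩
  show ψx z = ψy (tw d e z)
  by_cases hzx : z = x
  · rw [hzx, tw_fix e hx.2.2, Lx.base, eyx]
  have hzX : z ∈ Sset D₁ x := ⟨hz.1.1, hzx, hz.1.2⟩
  have htX : tw d e z ∈ Sset D₁ x := by
    cases e
    · exact hzX
    · exact sset_stable H.grp x dX hzX
  have htY : tw d e z ∈ Cn D₁ y := tw_mem H.conjD e hy.2.2 hz.2
  have hq : qmap D₁ x (tw d e z) = tw (qmap D₁ x d) e (qmap D₁ x z) := by
    cases e
    · rfl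
    · exact qmap_conj (subset_closure dX) (subset_closure hzX)
  refine H'.qmap_inj hx'.1 (hX z ⟨hzX, hz.2⟩).1 (hY _ ⟨htX, htY⟩).1 ?_
  rw [← (hX z ⟨hzX, hz.2⟩).2, ← (hY _ ⟨htX, htY⟩).2, hq]
  exact he _ ((H.qmap_cn hx.1 yX hzX).2 hz.2)

/-- A good map of stars extends to an isomorphism of the groups. -/
theorem m23_extend {d : G₁} {d' : G₂} {φ : G₁ → G₂} (hd : d ∈ D₁) (hd' : d' ∈ D₂)
    (hφ : Good23 D₁ D₂ d d' φ) :
    ∃ e : G₁ ≃* G₂, e '' D₁ = D₂ ∧ e d = d' ∧ ∀ z ∈ Cn D₁ d, e z = φ z := by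
  classical
  choose ψ hψ using fun x (hx : x ∈ Sset D₁ d) => exists_star H H' hd hφ hx
  let Ψ : G₁ → G₁ → G₂ := fun x => if h : x ∈ Sset D₁ d then ψ x h else φ
  have hΨ : ∀ x ∈ Sset D₁ d,
      Loc D₁ D₂ x (φ x) (Ψ x) ∧ Set.EqOn (Ψ x) φ (Cn D₁ x ∩ Cn D₁ d) := fun x hx => by
    simp only [Ψ, dif_pos hx]
    exact hψ x hx
  have S : SysPre D₁ D₂ d d' φ Ψ 351 :=
    { cls₁ := H.cls
      cls₂ := H'.cls
      cen₁ := H.typ.cen
      cen₂ := H'.typ.cen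
      mem := hd
      mem' := hd'
      loc := hφ.toLoc
      star := hΨ
      edge := fun x hx y hy hxy => by
        by_cases h : x = y
        · subst h; exact ⟨false, fun z _ => rfl⟩
        · exact edge H H' hd hφ.toLoc hx hy hxy (hΨ x hx).1 (hΨ y hy).1 (hΨ x hx).2 (hΨ y hy).2 h
      far := fun x hx y hy hxy => H.far hd hx hy hxy
      tri := fun x hx y hy z hz a b c n1 n2 n3 => Or.inl (H.tri hd hx hy hz a b c n1 n2 n3)
      conn := fun c hc hdc K => H.conn hd hc hdc K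
      mu₁ := H.mu
      mu₂ := H'.mu
      mu_ne := by norm_num
      meet := fun c hc e he a b h => H.meet hd hc he a b h
      third := fun a ha b hb hab z hz => H'.third ha hb hab hz
      card := H.card.trans H'.card.symm }
  exact S.exists_equiv (S.exists_orient_of_conn
    (fun a ha x hx hax => (H.mid hd ha hx hax).2)
    fun a ha x hx y hy _ _ hxy => H.cross hd ha hx hy hxy)

/-- Groups of type M(23) are isomorphic, with any prescribed members matched. -/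
theorem m23_exists_equiv {d : G₁} {d' : G₂} (hd : d ∈ D₁) (hd' : d' ∈ D₂) :
    ∃ e : G₁ ≃* G₂, e '' D₁ = D₂ ∧ e d = d' := by
  obtain ⟨φ, hφ⟩ := exists_good23 H H' hd hd'
  obtain ⟨e, h1, h2, -⟩ := m23_extend H H' hd hd' hφ
  exact ⟨e, h1, h2⟩

end Cfsg.Agent.H87.Fi23A.Uniq
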